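import Cfsg.Agent.H776.Co.Lin
import Mathlib.GroupTheory.Sylow
import Mathlib.Tactic

/-!
Elementary facts about the group `T = 3^{1+2}` acting on `F₃⁶` and its subgroups `U1`, `U2`.
-/

set_option autoImplicit false
set_option linter.style.longLine false

namespace Cfsg.Agent.H531.Co1
open Subgroup Cfsg.Agent.H776.Co Cfsg.Agent.H776.Co.Lin

instance finite_L : Finite L := Finite.of_injective (fun g : L => (g : V → V)) DFunLike.coe_injective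

theorem tl_inj {a b c a' b' c' : ZMod 3} (h : tl a b c = tl a' b' c') : a = a' ∧ b = b' ∧ c = c' := by
  have h4 := congrArg (fun g : L => g ![0, 0, 0, 0, 1, 0]) h
  have h5 := congrArg (fun g : L => g ![0, 0, 0, 0, 0, 1]) h
  simp only [tl_apply] at h4 h5
  have e1 := congrFun h4 3
  have e2 := congrFun h5 3
  have e3 := congrFun h5 4
  simp [tf] at e1 e2 e3
  exact ⟨e1, e3, e2⟩

theorem tl_eq_one {a b c : ZMod 3} (h : tl a b c = 1) : a = 0 ∧ b = 0 ∧ c = 0 := by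
  rw [← tl_one] at h
  exact tl_inj h

theorem tl_conj (a b c a' b' c' : ZMod 3) :
    tl a b c * tl a' b' c' * (tl a b c)⁻¹ = tl a' b' (c' + a * b' - a' * b) := by
  rw [tl_inv, tl_mul, tl_mul]
  congr 1 <;> ring

theorem tl_pow_three (a b c : ZMod 3) : tl a b c ^ 3 = 1 := by
  have h3 : (3 : ZMod 3) = 0 := by decide
  rw [pow_succ, pow_two, tl_mul, tl_mul, ← tl_one]
  congr 1
  · linear_combination a * h3
  · linear_combination b * h3
  · linear_combination (c + a * b) * h3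

theorem mem_T {g : L} : g ∈ T ↔ ∃ a b c, g = tl a b c := Iff.rfl
theorem mem_U1 {g : L} : g ∈ U1 ↔ ∃ b c, g = tl 0 b c := Iff.rfl
theorem mem_U2 {g : L} : g ∈ U2 ↔ ∃ a c, g = tl a 0 c := Iff.rfl

theorem card_T : Nat.card T = 27 := by
  have e : ZMod 3 × ZMod 3 × ZMod 3 ≃ T := Equiv.ofBijective (fun p => ⟨tl p.1 p.2.1 p.2.2, _, _, _, rfl⟩) ⟨by
    rintro ⟨a, b, c⟩ ⟨a', b', c'⟩ h
    obtain ⟨h1, h2, h3⟩ := tl_inj (congrArg Subtype.val h)
    simp_all, by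
    rintro ⟨_, a, b, c, rfl⟩
    exact ⟨(a, b, c), rfl⟩⟩
  rw [← Nat.card_congr e]
  simp

theorem card_U1 : Nat.card U1 = 9 := by
  have e : ZMod 3 × ZMod 3 ≃ U1 := Equiv.ofBijective (fun p => ⟨tl 0 p.1 p.2, _, _, rfl⟩) ⟨by
    rintro ⟨b, c⟩ ⟨b', c'⟩ h
    obtain ⟨h1, h2, h3⟩ := tl_inj (congrArg Subtype.val h)
    simp_all, by
    rintro ⟨_, b, c, rfl⟩
    exact ⟨(b, c), rfl⟩⟩
  rw [← Nat.card_congr e]
  simp

theorem card_U2 : Nat.card U2 = 9 := by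
  have e : ZMod 3 × ZMod 3 ≃ U2 := Equiv.ofBijective (fun p => ⟨tl p.1 0 p.2, _, _, rfl⟩) ⟨by
    rintro ⟨b, c⟩ ⟨b', c'⟩ h
    obtain ⟨h1, h2, h3⟩ := tl_inj (congrArg Subtype.val h)
    simp_all, by
    rintro ⟨_, b, c, rfl⟩
    exact ⟨(b, c), rfl⟩⟩
  rw [← Nat.card_congr e]
  simp

theorem U1_le : U1 ≤ T := fun _ ⟨b, c, h⟩ => ⟨0, b, c, h⟩
theorem U2_le : U2 ≤ T := fun _ ⟨b, c, h⟩ => ⟨b, 0, c, h⟩

theorem mem_zp {g : L} : g ∈ zpowers (tl 0 0 1) ↔ ∃ c, g = tl 0 0 c := by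
  constructor
  · intro h
    have h1 : ∀ n : ℕ, tl 0 0 1 ^ n = tl 0 0 (n : ZMod 3) := by
      intro n
      induction n with
      | zero => simp [tl_one]
      | succ n ih => rw [pow_succ, ih, tl_mul]; congr 1 <;> push_cast <;> ring
    obtain ⟨n, rfl⟩ := (mem_powers_iff_mem_zpowers (x := tl 0 0 1)).2 h
    exact ⟨_, h1 n⟩
  · rintro ⟨c, rfl⟩
    fin_cases c
    · exact (tl_one ▸ one_mem _ : tl 0 0 0 ∈ zpowers (tl 0 0 1))
    · exact mem_zpowers _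
    · have : tl 0 0 2 = tl 0 0 1 * tl 0 0 1 := by rw [tl_mul]; rfl
      exact this ▸ mul_mem (mem_zpowers _) (mem_zpowers _)

theorem inf_U : U1 ⊓ U2 = zpowers (tl 0 0 1) := by
  ext g
  rw [mem_zp, mem_inf, mem_U1, mem_U2]
  constructor
  · rintro ⟨⟨b, c, rfl⟩, a, c', h⟩
    obtain ⟨-, rfl, -⟩ := tl_inj h
    exact ⟨c, rfl⟩
  · rintro ⟨c, rfl⟩
    exact ⟨⟨0, c, rfl⟩, 0, c, rfl⟩

theorem sq_one {e : ZMod 3} (h : e ^ 2 = 1) : e = 1 ∨ e = -1 := by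
  revert e
  decide

theorem sf_conj {e1 e2 e3 : ZMod 3} (h1 : e1 ^ 2 = 1) (h2 : e2 ^ 2 = 1) (h3 : e3 ^ 2 = 1) {g : L} (hg : ∀ v, g v = sf e1 e2 e3 v)
    (a b c : ZMod 3) : g * tl a b c * g⁻¹ = tl (e1 * a) (e2 * b) (e1 * e2 * c) := by
  rw [mul_inv_eq_iff_eq_mul]
  refine LinearEquiv.ext fun v => ?_
  rw [LinearEquiv.mul_apply, LinearEquiv.mul_apply, hg, hg, tl_apply, tl_apply]
  rcases sq_one h1 with rfl | rfl <;> rcases sq_one h2 with rfl | rfl <;> rcases sq_one h3 with rfl | rfl <;>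
    funext i <;> fin_cases i <;> simp [sf, tf] <;> ring

end Cfsg.Agent.H531.Co1
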