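import Cfsg.Agent.H776.Co.Loc
import Cfsg.Agent.H776.Co.Lin

/-!
The inputs of `star` and `final` proved by other members of the team, as one structure.
-/

set_option autoImplicit false
set_option linter.style.longLine false

namespace Cfsg.Agent.H531.Co1
open Subgroup Cfsg.Agent.H776.Co

/-- the abstract inputs -/
structure DepsLoc : Prop where
  symm : ∀ {Γ : Type} [Group Γ] [Finite Γ] {T U1 U2 : Subgroup Γ} {z : Γ} {Z : Subgroup Γ}, Loc T U1 U2 z Z → Loc T U2 U1 z Z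
  quot : ∀ {Γ : Type} [Group Γ] [Finite Γ] {T U1 U2 : Subgroup Γ} {z : Γ} {Z : Subgroup Γ} (_ : Loc T U1 U2 z Z) [Z.Normal],
    Loc (T.map (QuotientGroup.mk' Z)) (U1.map (QuotientGroup.mk' Z)) (U2.map (QuotientGroup.mk' Z)) (QuotientGroup.mk' Z z) ⊥
  exists_simple : ∀ {Γ : Type} [Group Γ] [Finite Γ] {T U1 U2 : Subgroup Γ} {z : Γ}, Loc T U1 U2 z ⊥ →
    ∃ K : Subgroup Γ, K.Normal ∧ IsSimpleGroup K ∧ (¬ IsMulCommutative K) ∧ z ∈ K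
  card_inf_ne : ∀ {Γ : Type} [Group Γ] [Finite Γ] {T U1 U2 : Subgroup Γ} {z : Γ} (_ : Loc T U1 U2 z ⊥) {K : Subgroup Γ},
    K.Normal → IsSimpleGroup K → ¬ IsMulCommutative K → z ∈ K → Nat.card ↥(T ⊓ K) ≠ 3
  card_inf_ne' : ∀ {Γ : Type} [Group Γ] [Finite Γ] {T U1 U2 : Subgroup Γ} {z : Γ} (_ : Loc T U1 U2 z ⊥) {K : Subgroup Γ},
    K.Normal → IsSimpleGroup K → ¬ IsMulCommutative K → z ∈ K → Nat.card ↥(T ⊓ K) ≠ 9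
  move1 : ∀ {Γ : Type} [Group Γ] [Finite Γ] {T U1 U2 : Subgroup Γ} {z : Γ} (_ : Loc T U1 U2 z ⊥) {K : Subgroup Γ},
    K.Normal → IsSimpleGroup K → ¬ IsMulCommutative K → T ≤ K →
    ∃ g : Γ, (∀ u ∈ U1, g * u * g⁻¹ ∈ U1) ∧ g * z * g⁻¹ ∉ zpowers z
  simple_list : ∀ {K : Type} [Group K] [Finite K] [IsSimpleGroup K], ¬ IsMulCommutative K → ∀ T : Sylow 3 K,
    Nat.card T = 27 → (¬ ∀ x y : T, x * y = y * x) → Nat.card K ∣ 2 ^ 13 * 3 ^ 3 * 5 * 7 * 11 ^ 2 * 13 ^ 2 →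
    Nat.card K = 5616 ∨ Nat.card K = 6048 ∨ Nat.card K = 95040

open Cfsg.Agent.H776.Co.Lin

/-- the linear inputs -/
structure DepsLin : Prop where
  sig : ∀ (R : Subgroup L) (_ : ∀ t ∈ T, ∀ r ∈ R, t * r * t⁻¹ ∈ R) (_ : ¬ 3 ∣ Nat.card R), ∀ r ∈ R, (∀ v, r v = v) ∨ (∀ v, r v = -v)
  tri : ∀ (x : L) (_ : x ∈ U1 ∨ x ∈ U2) (_ : x ≠ 1) (P Q : Subgroup L) (_ : IsPGroup 3 P) (_ : IsPGroup 3 Q)
    (_ : ∀ g ∈ P, g * x = x * g) (_ : ∀ g ∈ Q, g * x = x * g), IsPGroup 3 ↥(P ⊔ Q)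
  reg : ∀ (x : L) (_ : x ∈ T) (_ : x ∉ U1) (_ : x ∉ U2) (C : Subgroup L) (_ : ∀ g ∈ C, g * x = x * g) (_ : 3 ∣ Nat.card C),
    Nat.card (Sylow 3 C) = 1 ∨ Nat.card (Sylow 3 C) = 4
  type : ∀ (g x : L) (_ : x ∈ U1 ∨ x ∈ U2) (_ : g * x * g⁻¹ ∈ T), g * x * g⁻¹ ∈ U1 ∨ g * x * g⁻¹ ∈ U2
  not_conj : ∀ g : L, ∃ x ∈ U1, g * x * g⁻¹ ∉ U2
  core : ∀ {G : Subgroup L} (_ : Syl G) (_ : ∃ g ∈ G, ∃ v, inW1 v ∧ ¬ inW1 (g v)) (_ : ∃ g ∈ G, ∃ v, inW3 v ∧ ¬ inW3 (g v))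
    (N : Subgroup L) (_ : N ≤ G) (_ : ∀ g ∈ G, ∀ n ∈ N, g * n * g⁻¹ ∈ N) (_ : IsPGroup 3 N), N = ⊥
  ord : ∀ {G : Subgroup L} (_ : Syl G), Nat.card G ∣ 2 ^ 13 * 3 ^ 3 * 5 * 7 * 11 ^ 2 * 13 ^ 2
  k_ne_one : ∀ {G : Subgroup L} (_ : Syl G) (_ : ∃ g ∈ G, ∀ v, g v = w1f v) {k : ZMod 3} (_ : ∃ g ∈ G, ∀ v, g v = w2f k v), k ≠ 1

end Cfsg.Agent.H531.Co1
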