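import Cfsg.Agent.H776.Co.Lin
import Mathlib.Tactic

/-!
Orders of some explicit elements of the groups `⟨T, w1, w2 k⟩`, `k = 0, 2` modulo `±1`: the orbits of `e33`.
-/

set_option autoImplicit false
set_option linter.style.longLine false

namespace Cfsg.Agent.H531.Co1
open Subgroup Cfsg.Agent.H776.Co Cfsg.Agent.H776.Co.Lin

/-- the inverse of `w1f` -/
def w1i (v : V) : V := ![v 2, -v 1, v 0, v 4, -v 3, v 5]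
/-- the inverse of `w2f k` -/
def w2i (k : ZMod 3) (v : V) : V := ![v 0 - k * (v 5 - v 2), v 3, v 5, -v 1, -v 4, v 2]

theorem w1f_w1i (v : V) : w1f (w1i v) = v := by
  funext i
  fin_cases i <;> simp [w1f, w1i]

theorem w2f_w2i (k : ZMod 3) (v : V) : w2f k (w2i k v) = v := by
  funext i
  fin_cases i <;> simp [w2f, w2i]

theorem inv_w1 {w : L} (hw : ∀ v, w v = w1f v) (v : V) : w⁻¹ v = w1i v := by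
  have h : w (w1i v) = v := by rw [hw, w1f_w1i]
  have h2 : w⁻¹ (w (w1i v)) = w1i v := by rw [← LinearEquiv.mul_apply, inv_mul_cancel]; rfl
  rw [h] at h2
  exact h2

theorem inv_w2 {k : ZMod 3} {w : L} (hw : ∀ v, w v = w2f k v) (v : V) : w⁻¹ v = w2i k v := by
  have h : w (w2i k v) = v := by rw [hw, w2f_w2i]
  have h2 : w⁻¹ (w (w2i k v)) = w2i k v := by rw [← LinearEquiv.mul_apply, inv_mul_cancel]; rfl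
  rw [h] at h2
  exact h2

/-- apply a list of maps -/
def run (fs : List (V → V)) (v : V) : V := fs.foldl (fun v f => f v) v

/-- a checked path -/
def path : V → List ((V → V) × V) → Bool
  | _, [] => true
  | v, (f, w) :: l => decide (f v = w) && path w l

/-- its end -/
def fin : V → List ((V → V) × V) → V
  | v, [] => v
  | _, (_, w) :: l => fin w l

theorem run_path (l : List ((V → V) × V)) (v : V) (h : path v l = true) : run (l.map Prod.fst) v = fin v l := by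
  induction l generalizing v with
  | nil => rfl
  | cons p l ih =>
    obtain ⟨f, w⟩ := p
    rw [path, Bool.and_eq_true, decide_eq_true_iff] at h
    change run (l.map Prod.fst) (f v) = fin w l
    rw [h.1]
    exact ih w h.2

theorem run_append (a b : List (V → V)) (v : V) : run (a ++ b) v = run b (run a v) := List.foldl_append

theorem pow_apply {x : L} {fs : List (V → V)} (hx : ∀ v, x v = run fs v) (n : ℕ) (v : V) :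
    (x ^ n) v = run (List.replicate n fs).flatten v := by
  induction n generalizing v with
  | zero => rfl
  | succ n ih =>
    rw [pow_succ, LinearEquiv.mul_apply, ih, hx, List.replicate_succ, List.flatten_cons, run_append]

theorem pow_fin {x : L} {fs : List (V → V)} (hx : ∀ v, x v = run fs v) {n : ℕ} {l : List ((V → V) × V)} {v : V}
    (hl : l.map Prod.fst = (List.replicate n fs).flatten) (hp : path v l = true) : (x ^ n) v = fin v l := by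
  rw [pow_apply hx, ← hl, run_path l v hp]

/-- the base vector -/
def v0 : V := ![0, 0, 0, 0, 0, 1]

def p13 : List ((V → V) × V) := [
  (w1i, ![0, 0, 0, 0, 0, 1]),
  (tf 1 1 1, ![1, 1, 1, 1, 1, 1]),
  (w1f, ![1, 2, 1, 2, 1, 1]),
  (w2i 0, ![1, 2, 1, 1, 2, 1]),
  (tf 0 1 0, ![1, 0, 0, 1, 0, 1]),
  (w2f 0, ![1, 2, 1, 0, 0, 0]),
  (w1i, ![1, 1, 1, 0, 0, 0]),
  (tf 1 1 1, ![1, 2, 1, 0, 0, 0]),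
  (w1f, ![1, 1, 1, 0, 0, 0]),
  (w2i 0, ![1, 0, 0, 2, 0, 1]),
  (tf 0 1 0, ![1, 2, 1, 2, 1, 1]),
  (w2f 0, ![1, 1, 1, 2, 2, 1]),
  (w1i, ![1, 2, 1, 2, 1, 1]),
  (tf 1 1 1, ![1, 2, 1, 1, 2, 1]),
  (w1f, ![1, 1, 1, 1, 1, 1]),
  (w2i 0, ![1, 1, 1, 2, 2, 1]),
  (tf 0 1 0, ![1, 0, 0, 2, 0, 1]),
  (w2f 0, ![1, 1, 1, 0, 0, 0]),
  (w1i, ![1, 2, 1, 0, 0, 0]),
  (tf 1 1 1, ![0, 0, 1, 0, 0, 0]),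
  (w1f, ![1, 0, 0, 0, 0, 0]),
  (w2i 0, ![1, 0, 0, 0, 0, 0]),
  (tf 0 1 0, ![1, 0, 0, 0, 0, 0]),
  (w2f 0, ![1, 0, 0, 0, 0, 0]),
  (w1i, ![0, 0, 1, 0, 0, 0]),
  (tf 1 1 1, ![1, 1, 1, 0, 0, 0]),
  (w1f, ![1, 2, 1, 0, 0, 0]),
  (w2i 0, ![1, 0, 0, 1, 0, 1]),
  (tf 0 1 0, ![1, 1, 1, 1, 1, 1]),
  (w2f 0, ![1, 2, 1, 1, 2, 1]),
  (w1i, ![1, 1, 1, 2, 2, 1]),
  (tf 1 1 1, ![1, 0, 0, 2, 0, 1]),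
  (w1f, ![0, 0, 1, 0, 2, 1]),
  (w2i 0, ![0, 0, 1, 0, 1, 1]),
  (tf 0 1 0, ![0, 0, 1, 0, 2, 1]),
  (w2f 0, ![0, 0, 1, 0, 1, 1]),
  (w1i, ![1, 0, 0, 1, 0, 1]),
  (tf 1 1 1, ![1, 2, 1, 2, 1, 1]),
  (w1f, ![1, 1, 1, 2, 2, 1]),
  (w2i 0, ![1, 2, 1, 2, 1, 1]),
  (tf 0 1 0, ![1, 1, 1, 2, 2, 1]),
  (w2f 0, ![1, 1, 1, 1, 1, 1]),
  (w1i, ![1, 2, 1, 1, 2, 1]),
  (tf 1 1 1, ![1, 0, 0, 1, 0, 1]),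
  (w1f, ![0, 0, 1, 0, 1, 1]),
  (w2i 0, ![0, 0, 1, 0, 2, 1]),
  (tf 0 1 0, ![0, 0, 0, 0, 0, 1]),
  (w2f 0, ![0, 0, 1, 0, 0, 0]),
  (w1i, ![1, 0, 0, 0, 0, 0]),
  (tf 1 1 1, ![1, 0, 0, 0, 0, 0]),
  (w1f, ![0, 0, 1, 0, 0, 0]),
  (w2i 0, ![0, 0, 0, 0, 0, 1]),
  (tf 0 1 0, ![0, 0, 1, 0, 1, 1]),
  (w2f 0, ![0, 0, 1, 0, 2, 1]),
  (w1i, ![1, 0, 0, 2, 0, 1]),
  (tf 1 1 1, ![0, 0, 1, 0, 1, 1]),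
  (w1f, ![1, 0, 0, 2, 0, 1]),
  (w2i 0, ![1, 2, 1, 0, 0, 0]),
  (tf 0 1 0, ![1, 2, 1, 0, 0, 0]),
  (w2f 0, ![1, 0, 0, 2, 0, 1]),
  (w1i, ![0, 0, 1, 0, 1, 1]),
  (tf 1 1 1, ![1, 1, 1, 2, 2, 1]),
  (w1f, ![1, 2, 1, 1, 2, 1]),
  (w2i 0, ![1, 1, 1, 1, 1, 1]),
  (tf 0 1 0, ![1, 2, 1, 1, 2, 1]),
  (w2f 0, ![1, 2, 1, 2, 1, 1]),
  (w1i, ![1, 1, 1, 1, 1, 1]),
  (tf 1 1 1, ![0, 0, 1, 0, 2, 1]),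
  (w1f, ![1, 0, 0, 1, 0, 1]),
  (w2i 0, ![1, 1, 1, 0, 0, 0]),
  (tf 0 1 0, ![1, 1, 1, 0, 0, 0]),
  (w2f 0, ![1, 0, 0, 1, 0, 1]),
  (w1i, ![0, 0, 1, 0, 2, 1]),
  (tf 1 1 1, ![0, 0, 0, 0, 0, 1]),
  (w1f, ![0, 0, 0, 0, 0, 1]),
  (w2i 0, ![0, 0, 1, 0, 0, 0]),
  (tf 0 1 0, ![0, 0, 1, 0, 0, 0]),
  (w2f 0, ![0, 0, 0, 0, 0, 1])]
def p13_f : List (V → V) := [w1i, tf 1 1 1, w1f, w2i 0, tf 0 1 0, w2f 0]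

def p2 : List ((V → V) × V) := [
  (w2i 0, ![0, 0, 1, 0, 0, 0]),
  (tf 0 2 0, ![0, 0, 1, 0, 0, 0]),
  (w2f 0, ![0, 0, 0, 0, 0, 1]),
  (w1i, ![0, 0, 0, 0, 0, 1]),
  (tf 0 0 1, ![1, 0, 0, 1, 0, 1]),
  (w1f, ![0, 0, 1, 0, 1, 1]),
  (w2i 0, ![0, 0, 1, 0, 2, 1]),
  (tf 0 2 0, ![0, 0, 1, 0, 1, 1]),
  (w2f 0, ![0, 0, 1, 0, 2, 1]),
  (w1i, ![1, 0, 0, 2, 0, 1]),
  (tf 0 0 1, ![0, 0, 0, 0, 0, 1]),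
  (w1f, ![0, 0, 0, 0, 0, 1])]
def p2_f : List (V → V) := [w2i 0, tf 0 2 0, w2f 0, w1i, tf 0 0 1, w1f]

def p11 : List ((V → V) × V) := [
  (w1i, ![0, 0, 0, 0, 0, 1]),
  (tf 1 1 0, ![0, 0, 1, 0, 1, 1]),
  (w1f, ![1, 0, 0, 2, 0, 1]),
  (w2i 2, ![2, 2, 1, 0, 0, 0]),
  (tf 0 1 0, ![2, 2, 1, 0, 0, 0]),
  (w2f 2, ![1, 0, 0, 2, 0, 1]),
  (w1i, ![0, 0, 1, 0, 1, 1]),
  (tf 1 1 0, ![1, 2, 1, 1, 2, 1]),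
  (w1f, ![1, 1, 1, 1, 1, 1]),
  (w2i 2, ![1, 1, 1, 2, 2, 1]),
  (tf 0 1 0, ![1, 0, 0, 2, 0, 1]),
  (w2f 2, ![2, 1, 1, 0, 0, 0]),
  (w1i, ![1, 2, 2, 0, 0, 0]),
  (tf 1 1 0, ![1, 1, 2, 0, 0, 0]),
  (w1f, ![2, 2, 1, 0, 0, 0]),
  (w2i 2, ![1, 0, 0, 1, 0, 1]),
  (tf 0 1 0, ![1, 1, 1, 1, 1, 1]),
  (w2f 2, ![1, 2, 1, 1, 2, 1]),
  (w1i, ![1, 1, 1, 2, 2, 1]),
  (tf 1 1 0, ![1, 0, 0, 1, 0, 1]),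
  (w1f, ![0, 0, 1, 0, 1, 1]),
  (w2i 2, ![0, 0, 1, 0, 2, 1]),
  (tf 0 1 0, ![0, 0, 0, 0, 0, 1]),
  (w2f 2, ![1, 0, 1, 0, 0, 0]),
  (w1i, ![1, 0, 1, 0, 0, 0]),
  (tf 1 1 0, ![2, 1, 1, 0, 0, 0]),
  (w1f, ![1, 2, 2, 0, 0, 0]),
  (w2i 2, ![2, 0, 0, 1, 0, 2]),
  (tf 0 1 0, ![2, 1, 2, 1, 2, 2]),
  (w2f 2, ![2, 2, 2, 1, 1, 2]),
  (w1i, ![2, 1, 2, 1, 2, 2]),
  (tf 1 1 0, ![0, 0, 2, 0, 1, 2]),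
  (w1f, ![2, 0, 0, 2, 0, 2]),
  (w2i 2, ![1, 2, 2, 0, 0, 0]),
  (tf 0 1 0, ![1, 2, 2, 0, 0, 0]),
  (w2f 2, ![2, 0, 0, 2, 0, 2]),
  (w1i, ![0, 0, 2, 0, 1, 2]),
  (tf 1 1 0, ![2, 0, 0, 1, 0, 2]),
  (w1f, ![0, 0, 2, 0, 1, 2]),
  (w2i 2, ![0, 0, 2, 0, 2, 2]),
  (tf 0 1 0, ![0, 0, 2, 0, 1, 2]),
  (w2f 2, ![0, 0, 2, 0, 2, 2]),
  (w1i, ![2, 0, 0, 2, 0, 2]),
  (tf 1 1 0, ![2, 2, 2, 2, 2, 2]),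
  (w1f, ![2, 1, 2, 1, 2, 2]),
  (w2i 2, ![2, 1, 2, 2, 1, 2]),
  (tf 0 1 0, ![2, 0, 0, 2, 0, 2]),
  (w2f 2, ![1, 1, 2, 0, 0, 0]),
  (w1i, ![2, 2, 1, 0, 0, 0]),
  (tf 1 1 0, ![1, 0, 1, 0, 0, 0]),
  (w1f, ![1, 0, 1, 0, 0, 0]),
  (w2i 2, ![0, 0, 0, 0, 0, 1]),
  (tf 0 1 0, ![0, 0, 1, 0, 1, 1]),
  (w2f 2, ![0, 0, 1, 0, 2, 1]),
  (w1i, ![1, 0, 0, 2, 0, 1]),
  (tf 1 1 0, ![1, 2, 1, 2, 1, 1]),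
  (w1f, ![1, 1, 1, 2, 2, 1]),
  (w2i 2, ![1, 2, 1, 2, 1, 1]),
  (tf 0 1 0, ![1, 1, 1, 2, 2, 1]),
  (w2f 2, ![1, 1, 1, 1, 1, 1]),
  (w1i, ![1, 2, 1, 1, 2, 1]),
  (tf 1 1 0, ![0, 0, 0, 0, 0, 1]),
  (w1f, ![0, 0, 0, 0, 0, 1]),
  (w2i 2, ![1, 0, 1, 0, 0, 0]),
  (tf 0 1 0, ![1, 0, 1, 0, 0, 0]),
  (w2f 2, ![0, 0, 0, 0, 0, 1])]
def p11_f : List (V → V) := [w1i, tf 1 1 0, w1f, w2i 2, tf 0 1 0, w2f 2]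

def p5 : List ((V → V) × V) := [
  (w1i, ![0, 0, 0, 0, 0, 1]),
  (tf 1 0 1, ![1, 0, 0, 1, 0, 1]),
  (w1f, ![0, 0, 1, 0, 1, 1]),
  (w2i 2, ![0, 0, 1, 0, 2, 1]),
  (tf 0 1 0, ![0, 0, 0, 0, 0, 1]),
  (w2f 2, ![1, 0, 1, 0, 0, 0]),
  (w1i, ![1, 0, 1, 0, 0, 0]),
  (tf 1 0 1, ![2, 1, 1, 0, 0, 0]),
  (w1f, ![1, 2, 2, 0, 0, 0]),
  (w2i 2, ![2, 0, 0, 1, 0, 2]),
  (tf 0 1 0, ![2, 1, 2, 1, 2, 2]),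
  (w2f 2, ![2, 2, 2, 1, 1, 2]),
  (w1i, ![2, 1, 2, 1, 2, 2]),
  (tf 1 0 1, ![2, 2, 2, 2, 2, 2]),
  (w1f, ![2, 1, 2, 1, 2, 2]),
  (w2i 2, ![2, 1, 2, 2, 1, 2]),
  (tf 0 1 0, ![2, 0, 0, 2, 0, 2]),
  (w2f 2, ![1, 1, 2, 0, 0, 0]),
  (w1i, ![2, 2, 1, 0, 0, 0]),
  (tf 1 0 1, ![1, 0, 1, 0, 0, 0]),
  (w1f, ![1, 0, 1, 0, 0, 0]),
  (w2i 2, ![0, 0, 0, 0, 0, 1]),
  (tf 0 1 0, ![0, 0, 1, 0, 1, 1]),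
  (w2f 2, ![0, 0, 1, 0, 2, 1]),
  (w1i, ![1, 0, 0, 2, 0, 1]),
  (tf 1 0 1, ![0, 0, 0, 0, 0, 1]),
  (w1f, ![0, 0, 0, 0, 0, 1]),
  (w2i 2, ![1, 0, 1, 0, 0, 0]),
  (tf 0 1 0, ![1, 0, 1, 0, 0, 0]),
  (w2f 2, ![0, 0, 0, 0, 0, 1])]
def p5_f : List (V → V) := [w1i, tf 1 0 1, w1f, w2i 2, tf 0 1 0, w2f 2]

def p8 : List ((V → V) × V) := [
  (w1i, ![0, 0, 0, 0, 0, 1]),
  (tf 1 0 0, ![0, 0, 0, 0, 0, 1]),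
  (w1f, ![0, 0, 0, 0, 0, 1]),
  (w2i 2, ![1, 0, 1, 0, 0, 0]),
  (tf 0 1 0, ![1, 0, 1, 0, 0, 0]),
  (w2f 2, ![0, 0, 0, 0, 0, 1]),
  (w1i, ![0, 0, 0, 0, 0, 1]),
  (tf 1 0 0, ![0, 0, 0, 0, 0, 1]),
  (w1f, ![0, 0, 0, 0, 0, 1]),
  (tf 2 1 0, ![0, 0, 1, 0, 1, 1]),
  (w1i, ![1, 0, 0, 1, 0, 1]),
  (tf 1 0 0, ![1, 0, 0, 1, 0, 1]),
  (w1f, ![0, 0, 1, 0, 1, 1]),
  (w2i 2, ![0, 0, 1, 0, 2, 1]),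
  (tf 0 1 0, ![0, 0, 0, 0, 0, 1]),
  (w2f 2, ![1, 0, 1, 0, 0, 0]),
  (w1i, ![1, 0, 1, 0, 0, 0]),
  (tf 1 0 0, ![2, 1, 1, 0, 0, 0]),
  (w1f, ![1, 2, 2, 0, 0, 0]),
  (tf 2 1 0, ![2, 0, 2, 0, 0, 0]),
  (w1i, ![2, 0, 2, 0, 0, 0]),
  (tf 1 0 0, ![1, 2, 2, 0, 0, 0]),
  (w1f, ![2, 1, 1, 0, 0, 0]),
  (w2i 2, ![1, 0, 0, 2, 0, 1]),
  (tf 0 1 0, ![1, 2, 1, 2, 1, 1]),
  (w2f 2, ![1, 1, 1, 2, 2, 1]),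
  (w1i, ![1, 2, 1, 2, 1, 1]),
  (tf 1 0 0, ![0, 0, 1, 0, 1, 1]),
  (w1f, ![1, 0, 0, 2, 0, 1]),
  (tf 2 1 0, ![1, 2, 1, 2, 1, 1]),
  (w1i, ![1, 1, 1, 1, 1, 1]),
  (tf 1 0 0, ![1, 2, 1, 2, 1, 1]),
  (w1f, ![1, 1, 1, 2, 2, 1]),
  (w2i 2, ![1, 2, 1, 2, 1, 1]),
  (tf 0 1 0, ![1, 1, 1, 2, 2, 1]),
  (w2f 2, ![1, 1, 1, 1, 1, 1]),
  (w1i, ![1, 2, 1, 1, 2, 1]),
  (tf 1 0 0, ![0, 0, 1, 0, 2, 1]),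
  (w1f, ![1, 0, 0, 1, 0, 1]),
  (tf 2 1 0, ![1, 1, 1, 1, 1, 1]),
  (w1i, ![1, 2, 1, 1, 2, 1]),
  (tf 1 0 0, ![0, 0, 1, 0, 2, 1]),
  (w1f, ![1, 0, 0, 1, 0, 1]),
  (w2i 2, ![2, 1, 1, 0, 0, 0]),
  (tf 0 1 0, ![2, 1, 1, 0, 0, 0]),
  (w2f 2, ![1, 0, 0, 1, 0, 1]),
  (w1i, ![0, 0, 1, 0, 2, 1]),
  (tf 1 0 0, ![1, 1, 1, 2, 2, 1]),
  (w1f, ![1, 2, 1, 1, 2, 1]),
  (tf 2 1 0, ![1, 0, 0, 2, 0, 1]),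
  (w1i, ![0, 0, 1, 0, 1, 1]),
  (tf 1 0 0, ![1, 1, 1, 1, 1, 1]),
  (w1f, ![1, 2, 1, 2, 1, 1]),
  (w2i 2, ![1, 2, 1, 1, 2, 1]),
  (tf 0 1 0, ![1, 0, 0, 1, 0, 1]),
  (w2f 2, ![2, 2, 1, 0, 0, 0]),
  (w1i, ![1, 1, 2, 0, 0, 0]),
  (tf 1 0 0, ![2, 0, 2, 0, 0, 0]),
  (w1f, ![2, 0, 2, 0, 0, 0]),
  (tf 2 1 0, ![1, 1, 2, 0, 0, 0]),
  (w1i, ![2, 2, 1, 0, 0, 0]),
  (tf 1 0 0, ![1, 0, 1, 0, 0, 0]),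
  (w1f, ![1, 0, 1, 0, 0, 0]),
  (w2i 2, ![0, 0, 0, 0, 0, 1]),
  (tf 0 1 0, ![0, 0, 1, 0, 1, 1]),
  (w2f 2, ![0, 0, 1, 0, 2, 1]),
  (w1i, ![1, 0, 0, 2, 0, 1]),
  (tf 1 0 0, ![1, 0, 0, 2, 0, 1]),
  (w1f, ![0, 0, 1, 0, 2, 1]),
  (tf 2 1 0, ![1, 0, 0, 1, 0, 1]),
  (w1i, ![0, 0, 1, 0, 2, 1]),
  (tf 1 0 0, ![1, 1, 1, 2, 2, 1]),
  (w1f, ![1, 2, 1, 1, 2, 1]),
  (w2i 2, ![1, 1, 1, 1, 1, 1]),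
  (tf 0 1 0, ![1, 2, 1, 1, 2, 1]),
  (w2f 2, ![1, 2, 1, 2, 1, 1]),
  (w1i, ![1, 1, 1, 1, 1, 1]),
  (tf 1 0 0, ![1, 2, 1, 2, 1, 1]),
  (w1f, ![1, 1, 1, 2, 2, 1]),
  (tf 2 1 0, ![0, 0, 0, 0, 0, 1])]
def p8_f : List (V → V) := [w1i, tf 1 0 0, w1f, w2i 2, tf 0 1 0, w2f 2, w1i, tf 1 0 0, w1f, tf 2 1 0]


/-- stabiliser of the line of `v` -/
def St (v : V) : Subgroup L where
  carrier := {g | g v = v ∨ g v = -v}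
  mul_mem' := by
    rintro a b (ha | ha) (hb | hb)
    · left; rw [LinearEquiv.mul_apply, hb, ha]
    · right; rw [LinearEquiv.mul_apply, hb, map_neg, ha]
    · right; rw [LinearEquiv.mul_apply, hb, ha]
    · left; rw [LinearEquiv.mul_apply, hb, map_neg, ha, neg_neg]
  one_mem' := Or.inl rfl
  inv_mem' := by
    rintro a (ha | ha)
    · left
      have h : a⁻¹ (a v) = v := by rw [← LinearEquiv.mul_apply, inv_mul_cancel]; rfl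
      rwa [ha] at h
    · right
      have h : a⁻¹ (a v) = v := by rw [← LinearEquiv.mul_apply, inv_mul_cancel]; rfl
      rw [ha, map_neg] at h
      exact neg_eq_iff_eq_neg.1 h

theorem mem_St {v : V} {g : L} : g ∈ St v ↔ g v = v ∨ g v = -v := Iff.rfl

theorem gcd_mem {G : Type*} [Group G] {H : Subgroup G} {x : G} {n m : ℕ} (hn : x ^ n ∈ H) (hm : x ^ m ∈ H) :
    x ^ n.gcd m ∈ H := by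
  have h : x ^ ((n.gcd m : ℕ) : ℤ) ∈ H := by
    rw [Nat.gcd_eq_gcd_ab, zpow_add, zpow_mul, zpow_mul, zpow_natCast, zpow_natCast]
    exact mul_mem (zpow_mem hn _) (zpow_mem hm _)
  rwa [zpow_natCast] at h

theorem dvd_of_mem {G : Type*} [Group G] {H : Subgroup G} {x : G} {p a m : ℕ} (hp : p.Prime) (h1 : x ^ p ^ (a + 1) ∈ H)
    (h2 : x ^ p ^ a ∉ H) (hm : x ^ m ∈ H) : p ^ (a + 1) ∣ m := by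
  have h3 := gcd_mem h1 hm
  obtain ⟨j, hj, hg⟩ := (Nat.dvd_prime_pow hp).1 (Nat.gcd_dvd_left (p ^ (a + 1)) m)
  rw [hg] at h3
  rcases Nat.lt_or_ge j (a + 1) with h | h
  · exfalso
    apply h2
    have : p ^ a = p ^ j * p ^ (a - j) := by rw [← pow_add]; congr 1; omega
    rw [this, pow_mul]
    exact pow_mem h3 _
  · have : j = a + 1 := le_antisymm hj h
    rw [← this, ← hg]
    exact Nat.gcd_dvd_right _ _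

section
variable {w1 w2 : L}

theorem x13 (h1 : ∀ v, w1 v = w1f v) (h2 : ∀ v, w2 v = w2f 0 v) {m : ℕ}
    (hm : ((w2 * tl 0 1 0 * w2⁻¹) * (w1 * tl 1 1 1 * w1⁻¹)) ^ m ∈ St v0) : 13 ∣ m := by
  have hx : ∀ v, ((w2 * tl 0 1 0 * w2⁻¹) * (w1 * tl 1 1 1 * w1⁻¹)) v = run p13_f v := by
    intro v
    simp only [LinearEquiv.mul_apply, h1, h2, inv_w1 h1, inv_w2 h2, tl_apply]
    rfl
  refine dvd_of_mem (p := 13) (a := 0) (by norm_num) ?_ ?_ hm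
  · rw [mem_St, pow_fin hx (l := p13) rfl (by decide +kernel)]
    decide +kernel
  · rw [mem_St, pow_fin hx (n := 13 ^ 0) (l := p13.take 6) rfl (by decide +kernel)]
    decide +kernel

theorem x2 (h1 : ∀ v, w1 v = w1f v) (h2 : ∀ v, w2 v = w2f 0 v) {m : ℕ}
    (hm : ((w1 * tl 0 0 1 * w1⁻¹) * (w2 * tl 0 2 0 * w2⁻¹)) ^ m ∈ St v0) : 2 ∣ m := by
  have hx : ∀ v, ((w1 * tl 0 0 1 * w1⁻¹) * (w2 * tl 0 2 0 * w2⁻¹)) v = run p2_f v := by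
    intro v
    simp only [LinearEquiv.mul_apply, h1, h2, inv_w1 h1, inv_w2 h2, tl_apply]
    rfl
  refine dvd_of_mem (p := 2) (a := 0) (by norm_num) ?_ ?_ hm
  · rw [mem_St, pow_fin hx (l := p2) rfl (by decide +kernel)]
    decide +kernel
  · rw [mem_St, pow_fin hx (n := 2 ^ 0) (l := p2.take 6) rfl (by decide +kernel)]
    decide +kernel

theorem x11 (h1 : ∀ v, w1 v = w1f v) (h2 : ∀ v, w2 v = w2f 2 v) {m : ℕ}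
    (hm : ((w2 * tl 0 1 0 * w2⁻¹) * (w1 * tl 1 1 0 * w1⁻¹)) ^ m ∈ St v0) : 11 ∣ m := by
  have hx : ∀ v, ((w2 * tl 0 1 0 * w2⁻¹) * (w1 * tl 1 1 0 * w1⁻¹)) v = run p11_f v := by
    intro v
    simp only [LinearEquiv.mul_apply, h1, h2, inv_w1 h1, inv_w2 h2, tl_apply]
    rfl
  refine dvd_of_mem (p := 11) (a := 0) (by norm_num) ?_ ?_ hm
  · rw [mem_St, pow_fin hx (l := p11) rfl (by decide +kernel)]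
    decide +kernel
  · rw [mem_St, pow_fin hx (n := 11 ^ 0) (l := p11.take 6) rfl (by decide +kernel)]
    decide +kernel

theorem x5 (h1 : ∀ v, w1 v = w1f v) (h2 : ∀ v, w2 v = w2f 2 v) {m : ℕ}
    (hm : ((w2 * tl 0 1 0 * w2⁻¹) * (w1 * tl 1 0 1 * w1⁻¹)) ^ m ∈ St v0) : 5 ∣ m := by
  have hx : ∀ v, ((w2 * tl 0 1 0 * w2⁻¹) * (w1 * tl 1 0 1 * w1⁻¹)) v = run p5_f v := by
    intro v
    simp only [LinearEquiv.mul_apply, h1, h2, inv_w1 h1, inv_w2 h2, tl_apply]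
    rfl
  refine dvd_of_mem (p := 5) (a := 0) (by norm_num) ?_ ?_ hm
  · rw [mem_St, pow_fin hx (l := p5) rfl (by decide +kernel)]
    decide +kernel
  · rw [mem_St, pow_fin hx (n := 5 ^ 0) (l := p5.take 6) rfl (by decide +kernel)]
    decide +kernel

theorem x8 (h1 : ∀ v, w1 v = w1f v) (h2 : ∀ v, w2 v = w2f 2 v) {m : ℕ}
    (hm : (tl 2 1 0 * (w1 * tl 1 0 0 * w1⁻¹) * (w2 * tl 0 1 0 * w2⁻¹) * (w1 * tl 1 0 0 * w1⁻¹)) ^ m ∈ St v0) : 8 ∣ m := by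
  have hx : ∀ v, (tl 2 1 0 * (w1 * tl 1 0 0 * w1⁻¹) * (w2 * tl 0 1 0 * w2⁻¹) * (w1 * tl 1 0 0 * w1⁻¹)) v = run p8_f v := by
    intro v
    simp only [LinearEquiv.mul_apply, h1, h2, inv_w1 h1, inv_w2 h2, tl_apply]
    rfl
  refine dvd_of_mem (p := 2) (a := 2) (by norm_num) ?_ ?_ hm
  · rw [mem_St, pow_fin hx (n := 2 ^ 3) (l := p8) rfl (by decide +kernel)]
    decide +kernel
  · rw [mem_St, pow_fin hx (n := 2 ^ 2) (l := p8.take 40) rfl (by decide +kernel)]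
    decide +kernel

end

end Cfsg.Agent.H531.Co1
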