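import Cfsg.Agent.H531.Co1.Star
import Cfsg.Agent.H531.Co1.Words

/-!
`G = ⟨T, w1, w2 k⟩ N_G(T)`.
-/

set_option autoImplicit false
set_option linter.style.longLine false

namespace Cfsg.Agent.H531.Co1
open Subgroup Cfsg.Agent.H776.Co Cfsg.Agent.H776.Co.Lin

theorem card_dvd_factorial {A : Type*} [Group A] [Finite A] [IsSimpleGroup A] {X : Subgroup A} (hX : X ≠ ⊤) :
    Nat.card A ∣ X.index.factorial := by
  let ρ : A →* Equiv.Perm (A ⧸ X) := MulAction.toPermHom _ _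
  have hk : ρ.ker ≤ X := by
    intro a ha
    have h1 : ρ a = 1 := ha
    have h2 := congrArg (fun f : Equiv.Perm (A ⧸ X) => f (QuotientGroup.mk 1)) h1
    have h3 : (QuotientGroup.mk (a * 1) : A ⧸ X) = QuotientGroup.mk 1 := h2
    rw [QuotientGroup.eq, mul_one] at h3
    simpa using h3
  have hb : ρ.ker = ⊥ := by
    rcases (inferInstance : ρ.ker.Normal).eq_bot_or_eq_top with h | h
    · exact h
    · exact absurd (top_le_iff.1 (h ▸ hk)) hX
  have h1 := card_dvd_of_injective ρ ((MonoidHom.ker_eq_bot_iff ρ).1 hb)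
  rwa [Nat.card_perm] at h1

theorem mem_of_pow {Γ : Type*} [Group Γ] [Finite Γ] {K : Subgroup Γ} [K.Normal] {p : ℕ} (hp : p.Prime) (hi : ¬ p ∣ K.index) {x : Γ}
    (hx : x ^ p = 1) : x ∈ K := by
  have h1 : ((x : Γ ⧸ K)) ^ p = 1 := by rw [← QuotientGroup.mk_pow, hx]; rfl
  have h2 : orderOf (x : Γ ⧸ K) ∣ p := orderOf_dvd_of_pow_eq_one h1
  have h3 : orderOf (x : Γ ⧸ K) ∣ K.index := by
    rw [index_eq_card]
    exact orderOf_dvd_natCard _
  rcases (Nat.dvd_prime hp).1 h2 with h | h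
  · exact (QuotientGroup.eq_one_iff x).1 (orderOf_eq_one_iff.1 h)
  · exact absurd (h ▸ h3) hi

section
variable {G : Subgroup L}

/-- the order of `K` -/
theorem card_K (D : DepsLoc) (DL : DepsLin) (hG : Syl G) (h1 : ∃ g ∈ G, ∃ v, inW1 v ∧ ¬ inW1 (g v)) (h3 : ∃ g ∈ G, ∃ v, inW3 v ∧ ¬ inW3 (g v))
    (ht : ∃ g ∈ G, ∀ v, g v = sf 1 (-1) 1 v) {K : Subgroup (↥G ⧸ Zs G)} (hs : IsSimpleGroup K) (hc : ¬ IsMulCommutative K)
    (hT : Tq G ≤ K) : Nat.card K = 5616 ∨ Nat.card K = 6048 ∨ Nat.card K = 95040 := by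
  have hq := D.quot (loc DL hG h1 h3 ht)
  have hTK : Nat.card ↥((Tq G).subgroupOf K) = 27 := by
    rw [Nat.card_congr (subgroupOfEquivOfLe hT).toEquiv]
    exact hq.card_T
  have hP : IsPGroup 3 ↥((Tq G).subgroupOf K) := IsPGroup.of_card (n := 3) (by rw [hTK]; norm_num)
  have hidx : ¬ 3 ∣ ((Tq G).subgroupOf K).index := fun h => hq.syl (h.trans (relIndex_dvd_index_of_le hT))
  refine D.simple_list hc (hP.toSylow hidx) ?_ ?_ ?_
  · exact hTK
  · intro hcomm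
    have h9 : Tq G ≤ zpowers (QuotientGroup.mk' (Zs G) (zz hG)) := by
      intro x hx
      refine hq.center x hx fun y hy => ?_
      have := hcomm ⟨⟨x, hT hx⟩, hx⟩ ⟨⟨y, hT hy⟩, hy⟩
      exact congrArg (fun w => ((w : ↥K) : ↥G ⧸ Zs G)) (congrArg Subtype.val this)
    have h10 := card_le_of_le h9
    rw [show Nat.card ↥(Tq G) = 27 from hq.card_T, Nat.card_zpowers] at h10
    have h11 : orderOf (QuotientGroup.mk' (Zs G) (zz hG)) ∣ 3 := orderOf_dvd_of_pow_eq_one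
      (hq.exp _ ⟨_, (⟨0, 0, 1, rfl⟩ : tl 0 0 1 ∈ T), rfl⟩)
    have := Nat.le_of_dvd (by norm_num) h11
    omega
  · exact (card_subgroup_dvd_card K).trans hq.ord

/-- the part of `H` lying over `K` -/
def MM (H : Subgroup L) (K : Subgroup (↥G ⧸ Zs G)) : Subgroup L := H ⊓ (K.comap (QuotientGroup.mk' (Zs G))).map G.subtype

theorem St_of_pow {x : ↥G} {m : ℕ} (h : QuotientGroup.mk' (Zs G) x ^ m = 1) (v : V) : (x : L) ^ m ∈ St v := by
  rw [← map_pow] at h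
  have h1 : x ^ m ∈ Zs G := (QuotientGroup.eq_one_iff _).1 h
  rw [← SubmonoidClass.coe_pow]
  exact h1.imp (fun h => h v) (fun h => h v)

/-- **B11.** -/
theorem final (D : DepsLoc) (DL : DepsLin) (hG : Syl G) (h1 : ∃ g ∈ G, ∀ v, g v = w1f v) {k : ZMod 3} (h2 : ∃ g ∈ G, ∀ v, g v = w2f k v)
    (h3 : ∃ g ∈ G, ∀ v, g v = sf 1 (-1) 1 v) :
    ∀ g ∈ G, ∃ h ∈ Subgroup.closure ((T : Set L) ∪ {x | ∀ v, x v = w1f v} ∪ {x | ∀ v, x v = w2f k v}), ∃ n ∈ G,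
      (∀ t ∈ T, n * t * n⁻¹ ∈ T) ∧ g = h * n := by
  have hk1 := DL.k_ne_one hG h1 h2
  obtain ⟨w1, hw1, e1⟩ := h1
  obtain ⟨w2, hw2, e2⟩ := h2
  have hm1 : ∃ g ∈ G, ∃ v, inW1 v ∧ ¬ inW1 (g v) := by
    refine ⟨w1, hw1, ![1, 0, 0, 0, 0, 0], by simp [inW1], ?_⟩
    rw [e1]
    simp [inW1, w1f]
  have hm3 : ∃ g ∈ G, ∃ v, inW3 v ∧ ¬ inW3 (g v) := by
    refine ⟨w2, hw2, ![0, 1, 0, 0, 0, 0], by simp [inW3], ?_⟩
    rw [e2]
    simp [inW3, w2f]
  have hq := D.quot (loc DL hG hm1 hm3 h3)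
  obtain ⟨K, hK, hs, hc, hT⟩ := exists_K D DL hG hm1 hm3 h3
  have hcard := card_K D DL hG hm1 hm3 h3 hs hc hT
  set G0 := Subgroup.closure ((T : Set L) ∪ {x | ∀ v, x v = w1f v} ∪ {x | ∀ v, x v = w2f k v}) with hG0
  have hT0 : T ≤ G0 := fun x hx => subset_closure (Or.inl (Or.inl hx))
  have hw10 : w1 ∈ G0 := subset_closure (Or.inl (Or.inr e1))
  have hw20 : w2 ∈ G0 := subset_closure (Or.inr e2)
  have hle : G0 ≤ G := by
    rw [hG0, closure_le]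
    rintro x ((hx | hx) | hx)
    · exact hG.le hx
    · have : x = w1 := LinearEquiv.ext fun v => by rw [hx v, e1 v]
      exact this ▸ hw1
    · have : x = w2 := LinearEquiv.ext fun v => by rw [hx v, e2 v]
      exact this ▸ hw2
  -- the part over `K`
  set π := QuotientGroup.mk' (Zs G) with hπ
  set H0 : Subgroup (↥G ⧸ Zs G) := (G0.subgroupOf G).map π ⊓ K with hH0
  have hTq : Tq G ≤ H0 := le_inf (map_mono fun x hx => hT0 hx) hT
  have hidx : ¬ 3 ∣ K.index := fun h => hq.syl (h.trans (index_dvd_of_le hT))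
  have h3K : ∀ x : ↥G, x ^ 3 = 1 → π x ∈ K := fun x hx => mem_of_pow Nat.prime_three hidx (by rw [← map_pow, hx, map_one])
  have hTM : ∀ w ∈ G0, ∀ t ∈ T, w * t * w⁻¹ ∈ MM G0 K := by
    intro w hw t ht
    have hmem : w * t * w⁻¹ ∈ G0 := mul_mem (mul_mem hw (hT0 ht)) (inv_mem hw)
    refine mem_inf.2 ⟨hmem, ⟨⟨w, hle hw⟩ * ⟨t, hG.le ht⟩ * ⟨w, hle hw⟩⁻¹, ?_, rfl⟩⟩
    refine h3K _ ?_
    rw [conj_pow, T_pow (ht : ((⟨t, hG.le ht⟩ : ↥G) : L) ∈ T), mul_one, mul_inv_cancel]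
  have hTM' : ∀ t ∈ T, t ∈ MM G0 K := by
    intro t ht
    have := hTM 1 (one_mem _) t ht
    rwa [one_mul, inv_one, mul_one] at this
  have hdvd : ∀ x ∈ MM G0 K, ∀ n : ℕ, (∀ m, x ^ m ∈ St v0 → n ∣ m) → n ∣ Nat.card H0 := by
    rintro x ⟨hx0, ⟨y, hy, rfl⟩⟩ n hn
    have hyH : π y ∈ H0 := ⟨⟨y, hx0, rfl⟩, hy⟩
    have h5 : n ∣ orderOf (⟨π y, hyH⟩ : H0) := by
      apply hn
      refine St_of_pow (x := y) ?_ v0
      have := pow_orderOf_eq_one (⟨π y, hyH⟩ : H0)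
      exact congrArg Subtype.val this
    exact h5.trans (orderOf_dvd_natCard _)
  have h27 : 27 ∣ Nat.card H0 := by
    have := card_dvd_of_le hTq
    rwa [show Nat.card ↥(Tq G) = 27 from hq.card_T] at this
  have hmul : Nat.card H0 * (H0.subgroupOf K).index = Nat.card K := by
    rw [← Nat.card_congr (subgroupOfEquivOfLe (inf_le_right : H0 ≤ K)).toEquiv]
    exact card_mul_index _
  have hKle : K ≤ H0 := by
    by_contra hcon
    have hne : H0.subgroupOf K ≠ ⊤ := fun h => hcon (subgroupOf_eq_top.1 h)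
    have hf := card_dvd_factorial hne
    set i := (H0.subgroupOf K).index with hi
    have hi0 : i ≠ 0 := index_ne_zero_of_finite
    have key : ∀ N p : ℕ, p.Prime → 8 < p → p ∣ N → Nat.card K = N → i ∣ 8 → False := by
      intro N p hp h8 hpN hN hi8
      have h1 : i ≤ 8 := Nat.le_of_dvd (by norm_num) hi8
      have h2 : p ∣ i.factorial := hpN.trans (hN ▸ hf)
      have h3 := (hp.dvd_factorial).1 h2
      omega
    have hk : k = 0 ∨ k = 2 := by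
      revert hk1
      clear * -
      revert k
      decide
    rcases hk with rfl | rfl
    · have h13 := hdvd _ (mul_mem (hTM w2 hw20 _ ⟨0, 1, 0, rfl⟩) (hTM w1 hw10 _ ⟨1, 1, 1, rfl⟩)) 13 (fun m hm => x13 e1 e2 hm)
      have h2 := hdvd _ (mul_mem (hTM w1 hw10 _ ⟨0, 0, 1, rfl⟩) (hTM w2 hw20 _ ⟨0, 2, 0, rfl⟩)) 2 (fun m hm => x2 e1 e2 hm)
      have h702 : 702 ∣ Nat.card H0 := by
        have a : 27 * 13 ∣ Nat.card H0 := Nat.Coprime.mul_dvd_of_dvd_of_dvd (by norm_num) h27 h13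
        exact Nat.Coprime.mul_dvd_of_dvd_of_dvd (by norm_num) a h2
      obtain ⟨c, hc'⟩ := h702
      rw [hc'] at hmul
      have h13' : 13 ∣ Nat.card K := by rw [← hmul]; exact ⟨54 * c * i, by ring⟩
      have h5616 : Nat.card K = 5616 := by
        rcases hcard with h | h | h
        · exact h
        · rw [h] at h13'; norm_num at h13'
        · rw [h] at h13'; norm_num at h13'
      refine key 5616 13 (by norm_num) (by norm_num) (by norm_num) h5616 ⟨c, ?_⟩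
      rw [h5616] at hmul
      have : 702 * (i * c) = 702 * 8 := by linarith
      omega
    · have h11 := hdvd _ (mul_mem (hTM w2 hw20 _ ⟨0, 1, 0, rfl⟩) (hTM w1 hw10 _ ⟨1, 1, 0, rfl⟩)) 11 (fun m hm => x11 e1 e2 hm)
      have h5 := hdvd _ (mul_mem (hTM w2 hw20 _ ⟨0, 1, 0, rfl⟩) (hTM w1 hw10 _ ⟨1, 0, 1, rfl⟩)) 5 (fun m hm => x5 e1 e2 hm)
      have h8 := hdvd _ (mul_mem (mul_mem (mul_mem (hTM' _ ⟨2, 1, 0, rfl⟩) (hTM w1 hw10 _ ⟨1, 0, 0, rfl⟩))
        (hTM w2 hw20 _ ⟨0, 1, 0, rfl⟩)) (hTM w1 hw10 _ ⟨1, 0, 0, rfl⟩)) 8 (fun m hm => x8 e1 e2 hm)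
      have hbig : 11880 ∣ Nat.card H0 := by
        have a : 27 * 11 ∣ Nat.card H0 := Nat.Coprime.mul_dvd_of_dvd_of_dvd (by norm_num) h27 h11
        have b : 27 * 11 * 5 ∣ Nat.card H0 := Nat.Coprime.mul_dvd_of_dvd_of_dvd (by norm_num) a h5
        exact Nat.Coprime.mul_dvd_of_dvd_of_dvd (by norm_num) b h8
      obtain ⟨c, hc'⟩ := hbig
      rw [hc'] at hmul
      have h11' : 11 ∣ Nat.card K := by rw [← hmul]; exact ⟨1080 * c * i, by ring⟩
      have h95040 : Nat.card K = 95040 := by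
        rcases hcard with h | h | h
        · rw [h] at h11'; norm_num at h11'
        · rw [h] at h11'; norm_num at h11'
        · exact h
      refine key 95040 11 (by norm_num) (by norm_num) (by norm_num) h95040 ⟨c, ?_⟩
      rw [h95040] at hmul
      have : 11880 * (i * c) = 11880 * 8 := by linarith
      omega
  -- Frattini
  have hP : IsPGroup 3 ↥(Tq G) := IsPGroup.of_card (n := 3) (by rw [hq.card_T]; norm_num)
  intro g hg
  have hfr := Sylow.normalizer_sup_eq_top' (N := K) (hP.toSylow hq.syl) hT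
  have hgm : π ⟨g, hg⟩ ∈ K ⊔ normalizer ((Tq G : Subgroup _) : Set (↥G ⧸ Zs G)) := by
    rw [sup_comm]
    have : π ⟨g, hg⟩ ∈ (⊤ : Subgroup (↥G ⧸ Zs G)) := mem_top _
    rw [← hfr] at this
    exact this
  obtain ⟨κ, hκ, ν, hν, hκν⟩ := mem_sup_of_normal_left.1 hgm
  obtain ⟨⟨h, hhG⟩, hh0, hhκ⟩ := (hKle hκ).1
  refine ⟨h, hh0, h⁻¹ * g, mul_mem (inv_mem hhG) hg, ?_, by group⟩
  intro t ht
  have hn : π (⟨h, hhG⟩⁻¹ * ⟨g, hg⟩) = ν := by
    rw [map_mul, map_inv, hhκ, ← hκν, inv_mul_cancel_left]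
  have h6 : π ((⟨h, hhG⟩⁻¹ * ⟨g, hg⟩) * ⟨t, hG.le ht⟩ * (⟨h, hhG⟩⁻¹ * ⟨g, hg⟩)⁻¹) ∈ Tq G := by
    rw [map_mul, map_mul, map_inv, hn]
    exact (mem_normalizer_iff.1 hν _).1 ⟨_, ht, rfl⟩
  exact lift_mem (U := T.subgroupOf G) (fun w hw => T_pow hw) (by
    rw [conj_pow, T_pow (ht : ((⟨t, hG.le ht⟩ : ↥G) : L) ∈ T), mul_one, mul_inv_cancel]) h6

end

end Cfsg.Agent.H531.Co1
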