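import Cfsg.Agent.H531.Co1.Basic
import Cfsg.Agent.H531.Co1.Deps
import Cfsg.Agent.H482.SylowNumbers

/-!
The local situation `Loc` for a linear group `G` with Sylow 3-subgroup `T`.
-/

set_option autoImplicit false
set_option linter.style.longLine false

namespace Cfsg.Agent.H531.Co1
open Subgroup Cfsg.Agent.H776.Co Cfsg.Agent.H776.Co.Lin

/-- the scalars `±1` in `G` -/
def Zs (G : Subgroup L) : Subgroup ↥G where
  carrier := {g | (∀ v, (g : L) v = v) ∨ ∀ v, (g : L) v = -v}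
  mul_mem' := by
    rintro a b (ha | ha) (hb | hb)
    · left; intro v; rw [Subgroup.coe_mul, LinearEquiv.mul_apply, hb, ha]
    · right; intro v; rw [Subgroup.coe_mul, LinearEquiv.mul_apply, hb, ha]
    · right; intro v; rw [Subgroup.coe_mul, LinearEquiv.mul_apply, hb, ha]
    · left; intro v; rw [Subgroup.coe_mul, LinearEquiv.mul_apply, hb, ha, neg_neg]
  one_mem' := Or.inl fun _ => rfl
  inv_mem' := by
    rintro a (ha | ha)
    · left; intro v
      have := congrArg (((a⁻¹ : ↥G) : L)) (ha v)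
      rw [← LinearEquiv.mul_apply, ← Subgroup.coe_mul, inv_mul_cancel] at this
      exact this.symm
    · right; intro v
      have := congrArg (((a⁻¹ : ↥G) : L)) (ha v)
      rw [← LinearEquiv.mul_apply, ← Subgroup.coe_mul, inv_mul_cancel, map_neg] at this
      exact (neg_eq_iff_eq_neg.2 this).symm ▸ rfl

theorem mem_Zs {G : Subgroup L} {g : ↥G} : g ∈ Zs G ↔ (∀ v, (g : L) v = v) ∨ ∀ v, (g : L) v = -v := Iff.rfl

theorem Zs_le (G : Subgroup L) : Zs G ≤ center ↥G := by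
  intro g hg
  rw [mem_center_iff]
  intro h
  apply Subtype.ext
  refine LinearEquiv.ext fun v => ?_
  rw [Subgroup.coe_mul, Subgroup.coe_mul, LinearEquiv.mul_apply, LinearEquiv.mul_apply]
  rcases hg with hg | hg
  · rw [hg, hg]
  · rw [hg, hg, map_neg]

instance Zs_normal (G : Subgroup L) : (Zs G).Normal := ⟨fun n hn g => by
  rw [mem_center_iff.1 (Zs_le G hn) g, mul_inv_cancel_right]
  exact hn⟩

theorem Zs_sq {G : Subgroup L} {g : ↥G} (hg : g ∈ Zs G) : g ^ 2 = 1 := by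
  apply Subtype.ext
  refine LinearEquiv.ext fun v => ?_
  rw [pow_two, Subgroup.coe_mul, LinearEquiv.mul_apply]
  rcases hg with hg | hg
  · rw [hg, hg]; rfl
  · rw [hg, hg, neg_neg]; rfl

theorem Zs_card (G : Subgroup L) : ¬ 3 ∣ Nat.card (Zs G) := by
  intro h
  have : Fact (Nat.Prime 3) := ⟨Nat.prime_three⟩
  obtain ⟨g, hg⟩ := exists_prime_orderOf_dvd_card' 3 h
  have h1 : g ^ 2 = 1 := Subtype.ext (Zs_sq g.2)
  have h2 := orderOf_dvd_of_pow_eq_one h1
  rw [hg] at h2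
  omega

/-- the central element of `T` in `G` -/
def zz {G : Subgroup L} (hG : Syl G) : ↥G := ⟨tl 0 0 1, hG.le ⟨0, 0, 1, rfl⟩⟩

theorem type_of_coord {a b c : ZMod 3} (h1 : tl a b c ∉ U1) (h2 : tl a b c ∉ U2) : a ≠ 0 ∧ b ≠ 0 := by
  constructor
  · rintro rfl
    exact h1 ⟨b, c, rfl⟩
  · rintro rfl
    exact h2 ⟨a, c, rfl⟩

theorem card_map_sub {G : Subgroup L} (R : Subgroup ↥G) : Nat.card (R.map G.subtype) = Nat.card R :=
  Nat.card_congr (R.equivMapOfInjective _ G.subtype_injective).toEquiv.symm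

theorem isPGroup_map_sub {G : Subgroup L} {p : ℕ} {R : Subgroup ↥G} (h : IsPGroup p (R.map G.subtype)) : IsPGroup p R :=
  h.of_equiv (R.equivMapOfInjective _ G.subtype_injective).symm

theorem zmod3_cases {a b : ZMod 3} (ha : a ≠ 0) (hb : b ≠ 0) : a = b ∨ a = -b := by
  revert a b
  decide

theorem conj_T {a b : ZMod 3} (hb : b ≠ 0) (c c' : ZMod 3) : ∃ g ∈ T, g * tl a b c * g⁻¹ = tl a b c' := by
  refine ⟨tl ((c' - c) * b) 0 0, ⟨_, _, _, rfl⟩, ?_⟩
  rw [tl_conj]
  have h : b * b = 1 := by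
    revert hb
    revert b
    decide
  congr 1
  linear_combination (c' - c) * h

theorem conj_all {G : Subgroup L} (hG : Syl G) (ht : ∃ g ∈ G, ∀ v, g v = sf 1 (-1) 1 v) {a b a' b' : ZMod 3} (ha : a ≠ 0)
    (hb : b ≠ 0) (ha' : a' ≠ 0) (hb' : b' ≠ 0) (c c' : ZMod 3) :
    ∃ g ∈ G, g * tl a b c * g⁻¹ = tl a' b' c' ∨ g * tl a b c * g⁻¹ = (tl a' b' c')⁻¹ := by
  obtain ⟨s, hs, hsf⟩ := ht
  have hsc := sf_conj (by decide) (by decide) (by decide) hsf
  have key : ∀ a' b' c' : ZMod 3, a' = a → b' ≠ 0 → ∃ g ∈ G, g * tl a b c * g⁻¹ = tl a' b' c' := by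
    rintro a' b' c' rfl hb''
    rcases zmod3_cases hb'' hb with rfl | rfl
    · obtain ⟨g, hg, h⟩ := conj_T (a := a') hb'' c c'
      exact ⟨g, hG.le hg, h⟩
    · obtain ⟨g, hg, h⟩ := conj_T (a := a') hb'' (-c) c'
      refine ⟨g * s, mul_mem (hG.le hg) hs, ?_⟩
      rw [← h]
      have h2 := hsc a' b c
      have h3 : tl (1 * a') (-1 * b) (1 * -1 * c) = tl a' (-b) (-c) := by congr 1 <;> ring
      rw [h3] at h2
      rw [← h2]
      group
  rcases zmod3_cases ha' ha with h | h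
  · obtain ⟨g, hg, h1⟩ := key a' b' c' h hb'
    exact ⟨g, hg, Or.inl h1⟩
  · obtain ⟨g, hg, h1⟩ := key (-a') (-b') (-c' + a' * b') (by rw [h, neg_neg]) (neg_ne_zero.2 hb')
    exact ⟨g, hg, Or.inr (by rw [h1, tl_inv])⟩

theorem loc (DL : DepsLin) {G : Subgroup L} (hG : Syl G) (h1 : ∃ g ∈ G, ∃ v, inW1 v ∧ ¬ inW1 (g v)) (h3 : ∃ g ∈ G, ∃ v, inW3 v ∧ ¬ inW3 (g v))
    (ht : ∃ g ∈ G, ∀ v, g v = sf 1 (-1) 1 v) :
    Loc (T.subgroupOf G) (U1.subgroupOf G) (U2.subgroupOf G) (zz hG) (Zs G) where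
  card_T := by
    rw [Nat.card_congr (subgroupOfEquivOfLe hG.le).toEquiv, card_T]
  syl := hG.idx
  exp := by
    rintro x ⟨a, b, c, hx⟩
    apply Subtype.ext
    change (x : L) ^ 3 = 1
    rw [show (x : L) = tl a b c from hx, tl_pow_three]
  le1 := fun x hx => U1_le hx
  le2 := fun x hx => U2_le hx
  card1 := by
    rw [Nat.card_congr (subgroupOfEquivOfLe (U1_le.trans hG.le)).toEquiv, card_U1]
  card2 := by
    rw [Nat.card_congr (subgroupOfEquivOfLe (U2_le.trans hG.le)).toEquiv, card_U2]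
  inf := by
    ext x
    have h := (Subgroup.ext_iff.1 inf_U) (x : L)
    rw [mem_inf, mem_subgroupOf, mem_subgroupOf, ← mem_inf, h]
    constructor
    · rintro ⟨n, hn⟩
      exact ⟨n, Subtype.ext hn⟩
    · rintro ⟨n, rfl⟩
      exact ⟨n, rfl⟩
  z_ne := by
    intro h
    have := tl_eq_one (congrArg Subtype.val h)
    exact absurd this.2.2 (by decide)
  z_comm := by
    rintro x ⟨a, b, c, hx⟩
    apply Subtype.ext
    change (x : L) * tl 0 0 1 = tl 0 0 1 * x
    rw [show (x : L) = tl a b c from hx, tl_mul, tl_mul]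
    congr 1 <;> ring
  center := by
    rintro x ⟨a, b, c, hx⟩ h
    have hx' : (x : L) = tl a b c := hx
    have e1 := congrArg Subtype.val (h ⟨tl 1 0 0, hG.le ⟨1, 0, 0, rfl⟩⟩ (⟨1, 0, 0, rfl⟩ : tl 1 0 0 ∈ T))
    have e2 := congrArg Subtype.val (h ⟨tl 0 1 0, hG.le ⟨0, 1, 0, rfl⟩⟩ (⟨0, 1, 0, rfl⟩ : tl 0 1 0 ∈ T))
    change (x : L) * tl 1 0 0 = tl 1 0 0 * x at e1
    change (x : L) * tl 0 1 0 = tl 0 1 0 * x at e2
    rw [hx', tl_mul, tl_mul] at e1 e2
    have f1 := (tl_inj e1).2.2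
    have f2 := (tl_inj e2).2.2
    have hb : b = 0 := by linear_combination -f1
    have ha : a = 0 := by linear_combination f2
    subst ha hb
    obtain ⟨n, hn⟩ := mem_zp.2 ⟨c, rfl⟩
    exact ⟨n, Subtype.ext (by rw [hx']; exact hn)⟩
  type := by
    intro g x hx hg
    exact DL.type (g : L) (x : L) hx hg
  not_conj := by
    intro g
    obtain ⟨x, hx, h⟩ := DL.not_conj (g : L)
    exact ⟨⟨x, hG.le (U1_le hx)⟩, hx, h⟩
  Z_le := Zs_le G
  Z_card := Zs_card G
  sig := by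
    intro R hR h3 r hr
    refine DL.sig (R.map G.subtype) ?_ ?_ (r : L) ⟨r, hr, rfl⟩
    · rintro t ht _ ⟨r, hr, rfl⟩
      exact ⟨_, hR ⟨t, hG.le ht⟩ ht r hr, rfl⟩
    · rwa [card_map_sub]
  core := by
    intro N hN hp
    have h := DL.core hG h1 h3 (N.map G.subtype) (by rintro _ ⟨x, -, rfl⟩; exact x.2) (by
      rintro g hg _ ⟨n, hn, rfl⟩
      exact ⟨_, hN.conj_mem n hn ⟨g, hg⟩, rfl⟩) (hp.map _)
    rw [eq_bot_iff]
    intro x hx
    have : (x : L) ∈ N.map G.subtype := ⟨x, hx, rfl⟩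
    rw [h, mem_bot] at this
    exact Subtype.ext this
  tri := by
    intro x hx hx1 P Q hP hQ hPx hQx
    have h := DL.tri (x : L) hx (fun h => hx1 (Subtype.ext h)) (P.map G.subtype) (Q.map G.subtype) (hP.map _) (hQ.map _)
      (by
        rintro _ ⟨g, hg, rfl⟩
        exact congrArg Subtype.val (mem_centralizer_singleton_iff.1 (hPx hg)))
      (by
        rintro _ ⟨g, hg, rfl⟩
        exact congrArg Subtype.val (mem_centralizer_singleton_iff.1 (hQx hg)))
    rw [← Subgroup.map_sup] at h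
    exact isPGroup_map_sub h
  reg := by
    intro x hx hx1 hx2
    set C := centralizer ({x} : Set ↥G) with hC
    have e : ↥C ≃* ↥(C.map G.subtype) := C.equivMapOfInjective _ G.subtype_injective
    have h := DL.reg (x : L) hx hx1 hx2 (C.map G.subtype) (by
      rintro _ ⟨g, hg, rfl⟩
      exact congrArg Subtype.val (mem_centralizer_singleton_iff.1 hg)) (by
      rw [← Nat.card_congr e.toEquiv]
      have h5 : orderOf (⟨x, mem_centralizer_singleton_iff.2 rfl⟩ : ↥C) = 3 := by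
        have : Fact (Nat.Prime 3) := ⟨Nat.prime_three⟩
        refine orderOf_eq_prime ?_ ?_
        · apply Subtype.ext
          apply Subtype.ext
          obtain ⟨a, b, c, hx'⟩ := hx
          change (x : L) ^ 3 = 1
          rw [show (x : L) = tl a b c from hx', tl_pow_three]
        · intro h6
          have h7 : x = 1 := congrArg Subtype.val h6
          exact hx1 (h7 ▸ one_mem _)
      exact (dvd_of_eq h5.symm).trans (orderOf_dvd_natCard _))
    rwa [← H482.SylowNumbers.card_sylow_congr 3 e] at h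
  reg_conj := by
    rintro x ⟨a, b, c, hx⟩ hx1 hx2 y ⟨a', b', c', hy⟩ hy1 hy2
    have hx' : (x : L) = tl a b c := hx
    have hy' : (y : L) = tl a' b' c' := hy
    obtain ⟨ha, hb⟩ := type_of_coord (fun h => hx1 (mem_subgroupOf.2 (hx' ▸ h))) (fun h => hx2 (mem_subgroupOf.2 (hx' ▸ h)))
    obtain ⟨ha', hb'⟩ := type_of_coord (fun h => hy1 (mem_subgroupOf.2 (hy' ▸ h))) (fun h => hy2 (mem_subgroupOf.2 (hy' ▸ h)))
    obtain ⟨g, hg, h⟩ := conj_all hG ht ha hb ha' hb' c c'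
    rw [← hx', ← hy'] at h
    exact ⟨⟨g, hg⟩, h.imp (fun h => Subtype.ext h) (fun h => Subtype.ext h)⟩
  ord := DL.ord hG

end Cfsg.Agent.H531.Co1
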