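import Cfsg.Agent.H531.Co1.LocInst

/-!
`G` contains an element normalising `U1` (`U2`) and moving `⟨z⟩`.
-/

set_option autoImplicit false
set_option linter.style.longLine false

namespace Cfsg.Agent.H531.Co1
open Subgroup Cfsg.Agent.H776.Co Cfsg.Agent.H776.Co.Lin

section
variable {G : Subgroup L}

theorem lift_mem {U : Subgroup ↥G} (hU : ∀ u ∈ U, u ^ 3 = 1) {x : ↥G} (hx : x ^ 3 = 1)
    (h : QuotientGroup.mk' (Zs G) x ∈ U.map (QuotientGroup.mk' (Zs G))) : x ∈ U := by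
  obtain ⟨u, hu, hux⟩ := h
  have hc : u⁻¹ * x ∈ Zs G := QuotientGroup.eq.1 hux
  have hcc := mem_center_iff.1 (Zs_le G hc)
  have h2 := Zs_sq hc
  have hcomm : Commute u (u⁻¹ * x) := hcc u
  have h3 : (u⁻¹ * x) ^ 3 = 1 := by
    have : x = u * (u⁻¹ * x) := by group
    rw [this, hcomm.mul_pow, hU u hu, one_mul] at hx
    exact hx
  have h1 : u⁻¹ * x = 1 := by
    rw [pow_succ, h2, one_mul] at h3
    exact h3
  rw [inv_mul_eq_one] at h1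
  exact h1 ▸ hu

theorem T_pow {u : ↥G} (hu : u ∈ T.subgroupOf G) : u ^ 3 = 1 := by
  obtain ⟨a, b, c, hx⟩ := hu
  apply Subtype.ext
  change (u : L) ^ 3 = 1
  rw [show (u : L) = tl a b c from hx, tl_pow_three]

/-- the image of `T` in `G/±1` -/
abbrev Tq (G : Subgroup L) : Subgroup (↥G ⧸ Zs G) := (T.subgroupOf G).map (QuotientGroup.mk' (Zs G))

/-- **The simple normal subgroup** of `G/±1`. -/
theorem exists_K (D : DepsLoc) (DL : DepsLin) (hG : Syl G) (h1 : ∃ g ∈ G, ∃ v, inW1 v ∧ ¬ inW1 (g v)) (h3 : ∃ g ∈ G, ∃ v, inW3 v ∧ ¬ inW3 (g v))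
    (ht : ∃ g ∈ G, ∀ v, g v = sf 1 (-1) 1 v) :
    ∃ K : Subgroup (↥G ⧸ Zs G), K.Normal ∧ IsSimpleGroup K ∧ ¬ IsMulCommutative K ∧ Tq G ≤ K := by
  have hq := D.quot (loc DL hG h1 h3 ht)
  obtain ⟨K, hK, hs, hc, hz⟩ := D.exists_simple hq
  refine ⟨K, hK, hs, hc, ?_⟩
  have n3 := D.card_inf_ne hq hK hs hc hz
  have n9 := D.card_inf_ne' hq hK hs hc hz
  have h27 := hq.card_T
  have hdvd : Nat.card ↥(Tq G ⊓ K) ∣ 3 ^ 3 := by
    have := card_dvd_of_le (inf_le_left : Tq G ⊓ K ≤ Tq G)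
    rw [h27] at this
    exact this
  obtain ⟨i, hi, hcard⟩ := (Nat.dvd_prime_pow Nat.prime_three).1 hdvd
  have hzT : QuotientGroup.mk' (Zs G) (zz hG) ∈ Tq G := ⟨_, (⟨0, 0, 1, rfl⟩ : tl 0 0 1 ∈ T), rfl⟩
  have hi3 : i = 3 := by
    interval_cases i
    · exfalso
      rw [pow_zero, card_eq_one, eq_bot_iff] at hcard
      exact hq.z_ne (mem_bot.1 (hcard ⟨hzT, hz⟩))
    · exact absurd hcard n3
    · exact absurd hcard n9
    · rfl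
  rw [hi3] at hcard
  have : Tq G ⊓ K = Tq G := eq_of_le_of_card_ge inf_le_left (by rw [hcard, h27]; norm_num)
  exact inf_eq_left.1 this

theorem pull {U : Subgroup L} (hG : Syl G) (hU : U ≤ T) {g : ↥G}
    (h1 : ∀ u ∈ (U.subgroupOf G).map (QuotientGroup.mk' (Zs G)),
      QuotientGroup.mk' (Zs G) g * u * (QuotientGroup.mk' (Zs G) g)⁻¹ ∈ (U.subgroupOf G).map (QuotientGroup.mk' (Zs G)))
    (h2 : QuotientGroup.mk' (Zs G) g * QuotientGroup.mk' (Zs G) (zz hG) * (QuotientGroup.mk' (Zs G) g)⁻¹ ∉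
      zpowers (QuotientGroup.mk' (Zs G) (zz hG))) :
    ∃ g ∈ G, (∀ u ∈ U, g * u * g⁻¹ ∈ U) ∧ g * tl 0 0 1 * g⁻¹ ∉ zpowers (tl 0 0 1) := by
  refine ⟨g, g.2, fun u hu => ?_, fun hz => ?_⟩
  · have huG : u ∈ G := hG.le (hU hu)
    have h3 := h1 _ ⟨⟨u, huG⟩, hu, rfl⟩
    rw [← map_inv, ← map_mul, ← map_mul] at h3
    have h4 := lift_mem (U := U.subgroupOf G) (fun w hw => T_pow (hU hw : (w : L) ∈ T)) (x := g * ⟨u, huG⟩ * g⁻¹) (by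
      rw [conj_pow, T_pow (hU hu : ((⟨u, huG⟩ : ↥G) : L) ∈ T), mul_one, mul_inv_cancel]) h3
    exact h4
  · apply h2
    obtain ⟨n, hn⟩ := hz
    refine ⟨n, ?_⟩
    have : zz hG ^ n = g * zz hG * g⁻¹ := Subtype.ext hn
    change QuotientGroup.mk' (Zs G) (zz hG) ^ n = _
    rw [← map_zpow, this, map_mul, map_mul, map_inv]

/-- **B8.** -/
theorem star (D : DepsLoc) (DL : DepsLin) (hG : Syl G) (h1 : ∃ g ∈ G, ∃ v, inW1 v ∧ ¬ inW1 (g v)) (h3 : ∃ g ∈ G, ∃ v, inW3 v ∧ ¬ inW3 (g v))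
    (ht : ∃ g ∈ G, ∀ v, g v = sf 1 (-1) 1 v) :
    (∃ g ∈ G, (∀ u ∈ U1, g * u * g⁻¹ ∈ U1) ∧ g * tl 0 0 1 * g⁻¹ ∉ zpowers (tl 0 0 1)) ∧
    (∃ g ∈ G, (∀ u ∈ U2, g * u * g⁻¹ ∈ U2) ∧ g * tl 0 0 1 * g⁻¹ ∉ zpowers (tl 0 0 1)) := by
  obtain ⟨K, hK, hs, hc, hT⟩ := exists_K D DL hG h1 h3 ht
  have hl := loc DL hG h1 h3 ht
  constructor
  · obtain ⟨g, hg1, hg2⟩ := D.move1 (D.quot hl) hK hs hc hT
    obtain ⟨g, rfl⟩ := QuotientGroup.mk'_surjective _ g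
    exact pull hG U1_le hg1 hg2
  · obtain ⟨g, hg1, hg2⟩ := D.move1 (D.quot (D.symm hl)) hK hs hc hT
    obtain ⟨g, rfl⟩ := QuotientGroup.mk'_surjective _ g
    exact pull hG U2_le hg1 hg2

end

end Cfsg.Agent.H531.Co1
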